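import Cfsg.Prelude.Def_Local
import Cfsg.Agent.Chars.CoprimeExt
import Cfsg.Agent.Chars.InvariantAbove
import Cfsg.Agent.Chars.Glauberman
import Cfsg.Agent.Chars2.Correspondence
import Cfsg.Agent.LeadWork.ItoPSolvable
import Cfsg.Agent.Coprime.Action
import Cfsg.Agent.Core.Cores
import Cfsg.Agent.Core.PiSeparable
import Cfsg.Agent.OddChar.SylowNormalize

/-!
Characters of degree prime to `p` and a Sylow `q`-subgroup centralized by a Sylow `p`-subgroup.

If every character of degree prime to `p` has degree prime to `q` and the action of a Sylow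
`p`-subgroup on a normal `p'`-subgroup `A` of index prime to `q` is trivial modulo a `q'`-subgroup
`A₀`, then a Sylow `q`-subgroup of `A` centralized by `P` lies in every subgroup containing `P` of
index prime to `q`.
-/

set_option autoImplicit false
set_option linter.style.haveILetI false
set_option linter.unusedSectionVars false

open scoped ComplexConjugate commutatorElement

namespace Cfsg.Agent.CrossDeg

open Cfsg Cfsg.Agent

universe u

variable {G : Type u} [Group G] [Finite G] {p q : ℕ} [hp : Fact p.Prime] [hq : Fact q.Prime]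

theorem eq_one_of_mem {Q R : Subgroup G} (hQ : IsPGroup q Q) (hR : ¬ q ∣ Nat.card R) {z : G}
    (h1 : z ∈ Q) (h2 : z ∈ R) : z = 1 := by
  obtain ⟨k, hk⟩ := hQ.exists_orderOf_eq_pow ⟨z, h1⟩
  rw [Subgroup.orderOf_mk] at hk
  rw [← orderOf_eq_one_iff]
  exact Nat.eq_one_of_dvd_coprimes ((hq.out.coprime_iff_not_dvd.2 hR).pow_left k)
    (hk ▸ dvd_rfl) (Subgroup.orderOf_dvd_natCard _ h2)

/-- Some constituent of an induced character has degree prime to `p`. -/
theorem exists_p_prime_over [Fintype G] (H : Subgroup G) [Fintype H] {η : H → ℂ}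
    (hη : IsIrrCharacter H η) (hidx : ¬ p ∣ H.index) {d : ℕ} (hd : η 1 = d) (hpd : ¬ p ∣ d) :
    ∃ χ : IrrCharacter G, ¬ p ∣ charDegree (χ : G → ℂ) ∧
      classInner (fun h : H => (χ : G → ℂ) h) η ≠ 0 := by
  classical
  have hI : IsCharacter G (indFun H η) :=
    Chars.isCharacter_indFun _ (Chars.isCharacter_of_isIrr hη)
  by_contra hc
  push Not at hc
  have hdeg : ∀ χ : IrrCharacter G, ∃ m d : ℕ,
      classInner (indFun H η) (χ : G → ℂ) = m ∧ (χ : G → ℂ) 1 = d ∧ (p ∣ m * d) := fun χ => by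
    obtain ⟨m, hm⟩ := Chars.exists_classInner_eq_nat hI (Chars.irr_isCharacter χ)
    obtain ⟨hd', -⟩ := Blocks.charDegree_eq χ.2
    refine ⟨m, _, hm, hd', ?_⟩
    by_cases h : p ∣ charDegree (χ : G → ℂ)
    · exact dvd_mul_of_dvd_right h m
    · have h0 := hc χ h
      rw [Chars.classInner_indFun H η (Chars.isClassFunction_irr χ),
        ← Chars.classInner_conj_symm, h0, map_zero] at hm
      rw [Nat.cast_eq_zero.1 hm.symm, zero_mul]
      exact dvd_zero p
  choose m d' hm hd' hdvd using hdeg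
  have hsum := congrFun (Chars.eq_sum_classInner (Chars.isClassFunction_of_isCharacter hI)) 1
  rw [Finset.sum_apply, Chars.indFun_apply_one, hd] at hsum
  simp only [Pi.smul_apply, smul_eq_mul, hm, hd'] at hsum
  have h2 : H.index * d = ∑ χ : IrrCharacter G, m χ * d' χ := by exact_mod_cast hsum
  exact hp.out.not_dvd_mul hidx hpd (h2 ▸ Finset.dvd_sum fun χ _ => hdvd χ)

/-- A constituent extending `θ` gives a constituent `θ`. -/
theorem restrict_ne_zero [Fintype G] {N H : Subgroup G} [Fintype N] [Fintype H] (hNH : N ≤ H)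
    {χ : G → ℂ} (hχ : IsCharacter G χ) {η : H → ℂ} (hη : IsIrrCharacter H η) {θ : N → ℂ}
    (hθ : IsIrrCharacter N θ) (hres : ∀ n : N, η ⟨(n : G), hNH n.2⟩ = θ n)
    (hne : classInner (fun h : H => χ h) η ≠ 0) : classInner (fun n : N => χ n) θ ≠ 0 := by
  classical
  choose a ha using fun ψ : IrrCharacter H =>
    Chars.exists_classInner_eq_nat (Chars.isCharacter_restrict hχ H) (Chars.irr_isCharacter ψ)
  choose b hb using fun ψ : IrrCharacter H =>
    Chars.exists_classInner_eq_nat (Chars2.isCharacter_resSub N H hNH (Chars.irr_isCharacter ψ))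
      (Chars.isCharacter_of_isIrr hθ)
  rw [Chars2.classInner_restrict_expand N H hNH hχ θ]
  simp only [ha, hb, ← Nat.cast_mul, ← Nat.cast_sum]
  rw [Nat.cast_ne_zero]
  have h1 : b ⟨η, hη⟩ = 1 := by
    have h := hb ⟨η, hη⟩
    rw [show Chars2.resSub N H hNH η = θ from funext hres, Chars.classInner_self_irr hθ] at h
    exact_mod_cast h.symm
  have h2 : a ⟨η, hη⟩ ≠ 0 := fun h0 => hne (by
    have h := ha ⟨η, hη⟩
    rw [h0, Nat.cast_zero] at h
    exact h)
  intro h0
  rw [Finset.sum_eq_zero_iff] at h0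
  exact h2 (by simpa [h1] using h0 ⟨η, hη⟩ (Finset.mem_univ _))

/-- Inertia index and degree divide the degree of a character above. -/
theorem dvd_of_over [Fintype G] {N : Subgroup G} [N.Normal] [Fintype N] {θ : N → ℂ}
    (hθ : IsIrrCharacter N θ) (χ : IrrCharacter G)
    (hne : classInner (fun n : N => (χ : G → ℂ) n) θ ≠ 0) :
    (Chars2.inertiaSub θ).index * charDegree θ ∣ charDegree (χ : G → ℂ) := by
  have h := Chars2.clifford_degree χ.2 hθ hne
  obtain ⟨m, hm⟩ := Chars.exists_classInner_eq_nat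
    (Chars.isCharacter_restrict (Chars.irr_isCharacter χ) N) (Chars.isCharacter_of_isIrr hθ)
  rw [hm, (Blocks.charDegree_eq χ.2).1, (Blocks.charDegree_eq hθ).1] at h
  have h' : charDegree (χ : G → ℂ) = (Chars2.inertiaSub θ).index * m * charDegree θ := by
    exact_mod_cast h
  exact ⟨m, by rw [h']; ring⟩

/-- An invariant character of a normal `p'`-subgroup lies under a character of degree prime to
`p`. -/
theorem exists_over_invariant [Fintype G] (A : Subgroup G) [A.Normal] [Fintype A]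
    (hA : ¬ p ∣ Nat.card A) (P : Sylow p G) {θ : A → ℂ} (hθ : IsIrrCharacter A θ)
    (hinv : (P : Subgroup G) ≤ Chars2.inertiaSub θ) :
    ∃ χ : IrrCharacter G, ¬ p ∣ charDegree (χ : G → ℂ) ∧
      classInner (fun n : A => (χ : G → ℂ) n) θ ≠ 0 := by
  classical
  set H : Subgroup G := A ⊔ (P : Subgroup G) with hH
  have hAH : A ≤ H := le_sup_left
  haveI : Fintype H := Fintype.ofFinite _
  haveI : Fintype (A.subgroupOf H) := Fintype.ofFinite _
  have hHT : H ≤ Chars2.inertiaSub θ := sup_le (Chars2.le_inertiaSub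
    (Chars.isClassFunction_of_isCharacter (Chars.isCharacter_of_isIrr hθ))) hinv
  let e : A.subgroupOf H ≃* A := Subgroup.subgroupOfEquivOfLe hAH
  have hθ' : IsIrrCharacter (A.subgroupOf H) (θ ∘ e) := Chars.isIrrCharacter_comp_equiv hθ e
  have hinv' : Chars2.inertiaSub (θ ∘ e) = ⊤ := by
    refine Chars2.inertiaSub_eq_top fun t m => ?_
    have h1 := congrFun (Chars2.mem_inertiaSub.1 (hHT ((inv_mem t.2) : (t : G)⁻¹ ∈ H))) (e m)
    rw [Chars2.conjFun_apply] at h1
    refine Eq.trans ?_ h1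
    show θ (e _) = _
    congr 1
    ext
    simp [e]
  have hcop : (Nat.card (A.subgroupOf H)).Coprime (A.subgroupOf H).index := by
    rw [Nat.card_congr e.toEquiv]
    obtain ⟨k, hk⟩ := IsPGroup.iff_card.1 P.2
    have h1 : (A.subgroupOf H).index ∣ p ^ k := by
      rw [← hk, ← Subgroup.relIndex, hH, Subgroup.relIndex_sup_left]
      exact Subgroup.relIndex_dvd_card _ _
    exact Nat.Coprime.coprime_dvd_right h1
      (Nat.Coprime.pow_right k ((Nat.coprime_comm.1 (hp.out.coprime_iff_not_dvd.2 hA))))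
  obtain ⟨η, hη, hres⟩ := Chars.extends_of_coprime (A.subgroupOf H) hcop hθ' hinv'
  have hres' : ∀ a : A, η ⟨(a : G), hAH a.2⟩ = θ a := by
    intro a
    refine (hres (e.symm a)).trans ?_
    simp
  obtain ⟨d, hd0, hd, hdvd⟩ := Chars.irr_degree_dvd_card hθ
  have hη1 : η 1 = d := by
    rw [← hd, ← hres' 1]
    rfl
  have hpd : ¬ p ∣ d := fun h => hA (h.trans hdvd)
  have hidx : ¬ p ∣ H.index := fun h =>
    P.not_dvd_index (h.trans (Subgroup.index_dvd_of_le le_sup_right))
  obtain ⟨χ, hχ, hne⟩ := exists_p_prime_over H hη hidx hη1 hpd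
  exact ⟨χ, hχ, restrict_ne_zero hAH (Chars.irr_isCharacter χ) hη hθ hres' hne⟩

/-- The Sylow `q`-subgroup of `A` centralized by `P` lies in every subgroup over `P` of index
prime to `q`. -/
theorem exists_sylow_le (hpq : p ≠ q) (A A₀ : Subgroup G) [A.Normal] [A₀.Normal] (P : Sylow p G)
    (h₀ : A₀ ≤ A) (hpA : ¬ p ∣ Nat.card A) (hqA₀ : ¬ q ∣ Nat.card A₀) (hqidx : ¬ q ∣ A.index)
    (hcomm : ∀ a ∈ A, ∀ x ∈ P, ⁅a, x⁆ ∈ A₀) (hqs : IsPSolvable q G)
    (hdeg : ∀ χ : IrrCharacter G, ¬ p ∣ charDegree (χ : G → ℂ) → ¬ q ∣ charDegree (χ : G → ℂ)) :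
    ∃ Q : Subgroup G, Q ≤ A ∧ IsPGroup q Q ∧ ¬ q ∣ Q.index ∧
      Q ≤ Subgroup.centralizer ((P : Subgroup G) : Set G) ∧
      ∀ T : Subgroup G, (P : Subgroup G) ≤ T → ¬ q ∣ T.index → Q ≤ T := by
  classical
  haveI := Fintype.ofFinite G
  haveI : Group.IsNilpotent (P : Subgroup G) := P.isPGroup'.isNilpotent
  haveI : Group.IsSolvable (P : Subgroup G) := inferInstance
  have hcopA : (Nat.card (P : Subgroup G)).Coprime (Nat.card A) := by
    obtain ⟨k, hk⟩ := IsPGroup.iff_card.1 P.2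
    rw [hk]
    exact (hp.out.coprime_iff_not_dvd.2 hpA).pow_left k
  have hPA : (P : Subgroup G) ≤ Subgroup.normalizer (A : Set G) :=
    (Subgroup.normalizer_eq_top A).symm ▸ le_top
  obtain ⟨Q, hQA, hQ, hQi, hPQ⟩ := Coprime.exists_invariant_sylow hPA hcopA q
  have hQidx : ¬ q ∣ Q.index := by
    rw [← Subgroup.relIndex_mul_index hQA]
    exact hq.out.not_dvd_mul hQi hqidx
  -- invariant `q`-subgroups of `A` are centralized by `P`
  have hcent : ∀ S : Subgroup G, S ≤ A → IsPGroup q S →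
      (P : Subgroup G) ≤ Subgroup.normalizer (S : Set G) →
      S ≤ Subgroup.centralizer ((P : Subgroup G) : Set G) := by
    intro S hSA hS hPS s hs
    rw [Subgroup.mem_centralizer_iff]
    intro x hx
    have h1 : ⁅s, x⁆ ∈ S := by
      rw [commutatorElement_def, mul_assoc s, mul_assoc s]
      exact S.mul_mem hs ((Subgroup.mem_normalizer_iff.1 (hPS hx) _).1 (S.inv_mem hs))
    have h2 := eq_one_of_mem hS hqA₀ h1 (hcomm s (hSA hs) x hx)
    exact (commutatorElement_eq_one_iff_mul_comm.1 h2).symm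
  have hQP := hcent Q hQA hQ hPQ
  -- `A₀ Q` contains every `q`-subgroup of `A`
  have hB : ∀ S : Subgroup G, S ≤ A → IsPGroup q S → S ≤ Q ⊔ A₀ := by
    intro S hSA hS
    let N₀ := A₀.subgroupOf A
    haveI : Fintype A := Fintype.ofFinite _
    have hdeg' : ∀ ψ : IrrCharacter (A ⧸ N₀), ¬ q ∣ charDegree (ψ : A ⧸ N₀ → ℂ) := by
      intro ψ
      set θ : A → ℂ := fun a => (ψ : A ⧸ N₀ → ℂ) (QuotientGroup.mk' N₀ a) with hθdef
      have hθ : IsIrrCharacter A θ :=
        Chars.isIrrCharacter_comp_surjective ψ.2 _ (QuotientGroup.mk'_surjective N₀)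
      have hinv : (P : Subgroup G) ≤ Chars2.inertiaSub θ := by
        intro x hx
        rw [Chars2.mem_inertiaSub]
        funext a
        rw [Chars2.conjFun_apply, hθdef]
        show (ψ : A ⧸ N₀ → ℂ) _ = (ψ : A ⧸ N₀ → ℂ) _
        refine congrArg (ψ : A ⧸ N₀ → ℂ) ?_
        rw [QuotientGroup.mk'_apply, QuotientGroup.mk'_apply, QuotientGroup.eq,
          Subgroup.mem_subgroupOf]
        have h := hcomm ((a : G)⁻¹) (A.inv_mem a.2) x⁻¹ ((P : Subgroup G).inv_mem hx)
        have e2 : ((x⁻¹ * (a : G) * x⁻¹⁻¹)⁻¹ * (a : G)) =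
            ⁅((a : G)⁻¹), x⁻¹⁆⁻¹ := by
          rw [commutatorElement_def]; group
        simp only [Subgroup.coe_mul, Subgroup.coe_inv]
        rw [e2]
        exact A₀.inv_mem h
      obtain ⟨χ, hχ, hne⟩ := exists_over_invariant A hpA P hθ hinv
      intro hd
      refine hdeg χ hχ ((hd.trans ?_).trans (dvd_of_over hθ χ hne))
      have : charDegree θ = charDegree (ψ : A ⧸ N₀ → ℂ) := by simp [θ, charDegree]
      rw [this]
      exact dvd_mul_left _ _
    obtain ⟨R, hRn, -, hR, hRi⟩ := LeadWork.Ito.ito_pSolvable (p := q) (Nat.card (A ⧸ N₀))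
      (A ⧸ N₀) le_rfl (Core.isPSolvable_quotient (Core.isPSolvable_subgroup hqs A) N₀) hdeg'
    haveI : Unique (Sylow q (A ⧸ N₀)) := (hR.toSylow hRi).unique_of_normal hRn
    have hQs : ¬ q ∣ (Q.subgroupOf A).index := hQi
    have hQp : IsPGroup q (Q.subgroupOf A) := hQ.of_equiv (Subgroup.subgroupOfEquivOfLe hQA).symm
    let Qb := (hQp.toSylow hQs).mapSurjective (QuotientGroup.mk'_surjective N₀)
    obtain ⟨Sb, hSb⟩ := ((hS.of_equiv (Subgroup.subgroupOfEquivOfLe hSA).symm).map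
      (QuotientGroup.mk' N₀)).exists_le_sylow
    rw [Subsingleton.elim Sb Qb, Sylow.coe_mapSurjective, IsPGroup.toSylow_coe,
      Subgroup.map_le_iff_le_comap, Subgroup.comap_map_eq, QuotientGroup.ker_mk'] at hSb
    intro s hs
    have h := Subgroup.mem_map_of_mem A.subtype (hSb (x := ⟨s, hSA hs⟩) hs)
    rw [Subgroup.map_sup, Subgroup.map_subgroupOf_eq_of_le hQA,
      Subgroup.map_subgroupOf_eq_of_le h₀] at h
    exact h
  have hQB : Q ≤ Q ⊔ A₀ := le_sup_left
  have hBA : Q ⊔ A₀ ≤ A := sup_le hQA h₀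
  have hidxT : ∀ T : Subgroup G, ¬ q ∣ T.index → ¬ q ∣ (A ⊓ T).index := by
    intro T hT hd
    rw [← Subgroup.relIndex_mul_index (inf_le_left : A ⊓ T ≤ A), Subgroup.inf_relIndex_left] at hd
    rcases hq.out.dvd_mul.1 hd with h | h
    · rw [← OddChar.relIndex_sup_normal] at h
      exact hT (h.trans (Subgroup.relIndex_dvd_index_of_le le_sup_left))
    · exact hqidx h
  have hsyl : ∀ S : Subgroup G, S ≤ Q ⊔ A₀ → ¬ q ∣ S.index → ¬ q ∣ S.relIndex (Q ⊔ A₀) :=
    fun S hS h hd => h (hd.trans (Subgroup.relIndex_dvd_index_of_le hS))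
  -- subgroups over `A₀`
  have hT₀ : ∀ T : Subgroup G, A₀ ≤ T → ¬ q ∣ T.index → Q ≤ T := by
    intro T hA₀T hT
    obtain ⟨S⟩ : Nonempty (Sylow q ↥(A ⊓ T)) := inferInstance
    set S' := (S : Subgroup ↥(A ⊓ T)).map (A ⊓ T).subtype with hS'
    have hS'le : S' ≤ A ⊓ T := Subgroup.map_subtype_le _
    have hS'i : ¬ q ∣ S'.index := by
      rw [hS', Subgroup.index_map_subtype]
      exact hq.out.not_dvd_mul S.not_dvd_index (hidxT T hT)
    have hS'B := hB S' (hS'le.trans inf_le_left) (S.2.map _)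
    obtain ⟨x, hx, hxQ⟩ := Coprime.exists_conj_of_sylow (S.2.map _) hQ hS'B hQB
      (hsyl S' hS'B hS'i) (hsyl Q hQB hQidx)
    obtain ⟨u, hu, a, ha, rfl⟩ := Subgroup.mem_sup_of_normal_right.1 hx
    intro y hy
    have h1 : u * y * u⁻¹ ∈ Q := Q.mul_mem (Q.mul_mem hu hy) (Q.inv_mem hu)
    rw [← hxQ, Coprime.map_conj_mem] at h1
    have h2 : a⁻¹ * y * a ∈ S' := by
      convert h1 using 1
      group
    have h3 := T.mul_mem (T.mul_mem (hA₀T ha) (hS'le h2).2) (T.inv_mem (hA₀T ha))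
    simpa [mul_assoc] using h3
  -- `Q` centralizes `E`
  set E := A₀ ⊓ Subgroup.centralizer ((P : Subgroup G) : Set G) with hE
  haveI : Fintype A₀ := Fintype.ofFinite _
  have hpA₀ : ¬ p ∣ Nat.card A₀ := fun h => hpA (h.trans (Subgroup.card_dvd_of_le h₀))
  have hEn : Q ≤ Subgroup.normalizer (E : Set G) := by
    refine le_trans (le_inf ((Subgroup.normalizer_eq_top A₀).symm ▸ le_top) ?_)
      Subgroup.inf_normalizer_le_normalizer_inf
    exact hQP.trans Subgroup.le_normalizer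
  have hcls : ∀ u ∈ Q, ∀ e ∈ E, ∃ d ∈ E, u * e * u⁻¹ = d * e * d⁻¹ := by
    intro u hu e he
    have he' : u * e * u⁻¹ ∈ E := (Subgroup.mem_normalizer_iff.1 (hEn hu) e).1 he
    set e₁ : A₀ := ⟨e, he.1⟩ with he₁
    set e₂ : A₀ := ⟨u * e * u⁻¹, he'.1⟩ with he₂
    have hconj : IsConj e₂ e₁ := by
      by_contra hne
      let φ : (P : Subgroup G) →* MulAut A₀ := (MulAut.conjNormal).comp (P : Subgroup G).subtype
      letI := Chars.irrAction φ
      let F : Finset (IrrCharacter A₀) := Finset.univ.filter fun θ => ∀ x : (P : Subgroup G), x • θ = θ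
      have hfixv : ∀ (c : A₀), ((c : G) ∈ Subgroup.centralizer ((P : Subgroup G) : Set G)) →
          ∀ x : (P : Subgroup G), φ x c = c := by
        intro c hc x
        apply Subtype.ext
        show ((MulAut.conjNormal (x : G)) c : G) = c
        rw [MulAut.conjNormal_apply, Subgroup.mem_centralizer_iff.1 hc (x : G) x.2,
          mul_inv_cancel_right]
      have hint : ∀ (c d : A₀) (θ : IrrCharacter A₀),
          IsIntegral ℤ ((θ : A₀ → ℂ) c * conj ((θ : A₀ → ℂ) d)) := fun c d θ =>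
        (Chars.isIntegral_of_isCharacter (Chars.irr_isCharacter θ) c).mul
          (Chars.isIntegral_of_isCharacter (Chars.isCharacter_star (Chars.irr_isCharacter θ)) d)
      have hsum : ∀ c : A₀, (c : G) ∈ Subgroup.centralizer ((P : Subgroup G) : Set G) →
          Chars.CongrP p (∑ θ : IrrCharacter A₀, (θ : A₀ → ℂ) c * conj ((θ : A₀ → ℂ) e₁))
            (∑ θ ∈ F, (θ : A₀ → ℂ) c * conj ((θ : A₀ → ℂ) e₁)) := by
        intro c hc
        refine Chars.congrP_sum_fixed hp.out P.2 F (fun θ => by simp [F]) _ (hint c e₁) ?_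
        intro x θ
        show (θ : A₀ → ℂ) (φ x⁻¹ c) * conj ((θ : A₀ → ℂ) (φ x⁻¹ e₁)) = _
        rw [hfixv c hc, hfixv e₁ he.2]
      have heq : ∀ θ ∈ F, (θ : A₀ → ℂ) e₂ = (θ : A₀ → ℂ) e₁ := by
        intro θ hθ
        simp only [F, Finset.mem_filter, Finset.mem_univ, true_and] at hθ
        have hinv := (Chars.irrAction_fixed_iff φ θ).1 hθ
        have hPT : (P : Subgroup G) ≤ Chars2.inertiaSub (θ : A₀ → ℂ) := by
          intro x hx
          rw [Chars2.mem_inertiaSub]
          funext n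
          exact hinv ⟨x⁻¹, (P : Subgroup G).inv_mem hx⟩ n
        obtain ⟨χ, hχ, hne'⟩ := exists_over_invariant A₀ hpA₀ P θ.2 hPT
        have hTi : ¬ q ∣ (Chars2.inertiaSub (θ : A₀ → ℂ)).index := fun h =>
          hdeg χ hχ ((h.mul_right _).trans (dvd_of_over θ.2 χ hne'))
        have huT := hT₀ _ (Chars2.le_inertiaSub (Chars.isClassFunction_irr θ)) hTi hu
        have h1 := congrFun (Chars2.mem_inertiaSub.1 huT) e₂
        rw [Chars2.conjFun_apply] at h1
        rw [← h1]
        refine congrArg (θ : A₀ → ℂ) (Subtype.ext ?_)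
        simp only [he₁, he₂]
        group
      have h1 := hsum e₂ he'.2
      rw [Chars.column_orth, if_neg hne,
        Finset.sum_congr rfl fun θ hθ => by rw [heq θ hθ]] at h1
      have h2 := hsum e₁ he.2
      rw [Chars.column_orth, if_pos (IsConj.refl _)] at h2
      have h3 := Chars.congrP_trans h1 (Chars.congrP_symm h2)
      rw [← Nat.cast_zero, Chars.congrP_nat hp.out] at h3
      have h4 : p ∣ Nat.card (Subgroup.centralizer ({e₁} : Set A₀)) :=
        Nat.modEq_zero_iff_dvd.1 (Int.natCast_modEq_iff.1 h3).symm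
      exact hpA₀ (h4.trans (Subgroup.card_subgroup_dvd_card _))
    obtain ⟨g, hg⟩ := isConj_iff.1 hconj.symm
    have hg' : (g : G) * e * (g : G)⁻¹ = u * e * u⁻¹ := congrArg Subtype.val hg
    have hPA₀ : (P : Subgroup G) ≤ Subgroup.normalizer (A₀ : Set G) :=
      (Subgroup.normalizer_eq_top A₀).symm ▸ le_top
    obtain ⟨s, hs, c, hc, hgsc⟩ := Coprime.exists_mem_centralizer_of_conj_le hPA₀
      (hcopA.coprime_dvd_right (Subgroup.card_dvd_of_le h₀))
      (S := Subgroup.centralizer ({e} : Set G))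
      (fun x hx => Subgroup.mem_centralizer_singleton_iff.2
        (Subgroup.mem_centralizer_iff.1 he.2 x hx))
      (A₀.inv_mem g.2) (fun x hx => by
        rw [Subgroup.mem_centralizer_singleton_iff, inv_inv]
        have h := Subgroup.mem_centralizer_iff.1 he'.2 x hx
        rw [← hg'] at h
        calc (g : G)⁻¹ * x * g * e = (g : G)⁻¹ * (x * (g * e * (g : G)⁻¹)) * g := by group
          _ = (g : G)⁻¹ * ((g * e * (g : G)⁻¹) * x) * g := by rw [h]
          _ = e * ((g : G)⁻¹ * x * g) := by group)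
    refine ⟨c⁻¹, E.inv_mem hc, ?_⟩
    have hse := Subgroup.mem_centralizer_singleton_iff.1 hs.2
    rw [← hg', show (g : G) = c⁻¹ * s⁻¹ by rw [← mul_inv_rev, ← hgsc, inv_inv]]
    calc c⁻¹ * s⁻¹ * e * (c⁻¹ * s⁻¹)⁻¹ = c⁻¹ * (s⁻¹ * (e * s)) * c := by group
      _ = c⁻¹ * (s⁻¹ * (s * e)) * c := by rw [hse]
      _ = c⁻¹ * e * c⁻¹⁻¹ := by group
  have hQE : E ≤ Subgroup.centralizer (Q : Set G) := by
    haveI : Group.IsNilpotent Q := hQ.isNilpotent
    haveI : Group.IsSolvable Q := inferInstance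
    have hcopQ : (Nat.card Q).Coprime (Nat.card E) := by
      obtain ⟨k, hk⟩ := IsPGroup.iff_card.1 hQ
      rw [hk]
      exact ((hq.out.coprime_iff_not_dvd.2 hqA₀).pow_left k).coprime_dvd_right
        (Subgroup.card_dvd_of_le inf_le_left)
    set H : Subgroup E := (Subgroup.centralizer (Q : Set G)).subgroupOf E with hH
    have htop : H = ⊤ := by
      refine FGS2.eq_top_of_forall_conj_mem H fun x => ?_
      obtain ⟨y, hy, hyc⟩ := Coprime.exists_conj_le (N := E) (A := Q)
        (S := Subgroup.centralizer ({(x : G)} : Set G)) hEn hcopQ (fun a ha => by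
          obtain ⟨d, hd, hde⟩ := hcls a ha x x.2
          refine ⟨d⁻¹, E.inv_mem hd, ?_⟩
          rw [Subgroup.mem_centralizer_singleton_iff]
          calc d⁻¹ * a * (x : G) = d⁻¹ * (a * x * a⁻¹) * a := by group
            _ = (x : G) * (d⁻¹ * a) := by rw [hde]; group)
      refine ⟨⟨y, hy⟩, ?_⟩
      rw [hH, Subgroup.mem_subgroupOf, Subgroup.mem_centralizer_iff]
      intro a ha
      have h2 := Subgroup.mem_centralizer_singleton_iff.mp (hyc a ha)
      simp only [Subgroup.coe_mul, Subgroup.coe_inv]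
      calc a * (y⁻¹ * x * y) = y⁻¹ * ((y * a * y⁻¹) * x) * y := by group
        _ = y⁻¹ * (x * (y * a * y⁻¹)) * y := by rw [h2]
        _ = y⁻¹ * x * y * a := by group
    exact fun x hx => Subgroup.mem_subgroupOf.mp
      (htop ▸ Subgroup.mem_top (⟨x, hx⟩ : E) : (⟨x, hx⟩ : E) ∈ H)
  refine ⟨Q, hQA, hQ, hQidx, hQP, fun T hPT hT => ?_⟩
  have hPn : (P : Subgroup G) ≤ Subgroup.normalizer ((A ⊓ T : Subgroup G) : Set G) :=
    (le_inf hPA (hPT.trans Subgroup.le_normalizer)).trans Subgroup.inf_normalizer_le_normalizer_inf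
  obtain ⟨S, hSAT, hS, hSi, hPS⟩ := Coprime.exists_invariant_sylow hPn
    (hcopA.coprime_dvd_right (Subgroup.card_dvd_of_le inf_le_left)) q
  have hSidx : ¬ q ∣ S.index := by
    rw [← Subgroup.relIndex_mul_index hSAT]
    exact hq.out.not_dvd_mul hSi (hidxT T hT)
  have hSP := hcent S (hSAT.trans inf_le_left) hS hPS
  have hSB := hB S (hSAT.trans inf_le_left) hS
  have hPB : (P : Subgroup G) ≤ Subgroup.normalizer ((Q ⊔ A₀ : Subgroup G) : Set G) := by
    intro x hx
    refine Coprime.mem_normalizer_of_conj_mem fun y hy => ?_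
    obtain ⟨u, hu, a, ha, rfl⟩ := Subgroup.mem_sup_of_normal_right.1 hy
    rw [show x * (u * a) * x⁻¹ = (x * u * x⁻¹) * (x * a * x⁻¹) by group]
    exact Subgroup.mul_mem_sup ((Subgroup.mem_normalizer_iff.1 (hPQ hx) u).1 hu)
      (‹A₀.Normal›.conj_mem a ha x)
  obtain ⟨c, hc, hcQ⟩ := Coprime.exists_conj_invariant_sylow hPB
    (hcopA.coprime_dvd_right (Subgroup.card_dvd_of_le hBA)) hSB hQB hS hQ
    (hsyl S hSB hSidx) (hsyl Q hQB hQidx) hPS hPQ
  obtain ⟨u, hu, a, ha, rfl⟩ := Subgroup.mem_sup_of_normal_right.1 hc.1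
  have haE : a ∈ E := by
    refine ⟨ha, ?_⟩
    have := Subgroup.mul_mem _ (Subgroup.inv_mem _ (hQP hu)) hc.2
    rwa [inv_mul_cancel_left] at this
  intro y hy
  have h1 : u * y * u⁻¹ ∈ Q := Q.mul_mem (Q.mul_mem hu hy) (Q.inv_mem hu)
  rw [← hcQ, Coprime.map_conj_mem] at h1
  have h2 : a⁻¹ * y * a ∈ S := by
    convert h1 using 1
    group
  have h3 : a⁻¹ * y * a = y := by
    rw [mul_assoc, Subgroup.mem_centralizer_iff.1 (hQE haE) y hy, inv_mul_cancel_left]
  exact (hSAT (h3 ▸ h2)).2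

end Cfsg.Agent.CrossDeg
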